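import Cfsg.Agent.H73.Rg.PP

/-!
# Half classes (helper73)

`HAt p f c B` : the primes `r` with `p` of order `f c` modulo `r` dividing `|B|` do not divide the index of `B`, and
`|B|` contains at least the square root of the `p`-primitive part of `p ^ (f c) - 1`.
-/

set_option autoImplicit false

namespace Cfsg.Agent.H73.Rg

open Cfsg.Agent.H436

/-- `B` contains at least half of the class `c` -/
structure HAt (p f c : ℕ) {K : Type*} [Group K] (B : Subgroup K) : Prop where
  full : ∀ r, Prim p (f * c) r → r ∣ Nat.card B → ¬ r ∣ B.index
  half : PP p (f * c) ≤ (Nat.gcd (Nat.card B) (PP p (f * c))) ^ 2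

/-- `B` contains at least half of the classes of the list -/
def HOff (p f : ℕ) (cls : List ℕ) {K : Type*} [Group K] (B : Subgroup K) : Prop := ∀ c ∈ cls, HAt p f c B

end Cfsg.Agent.H73.Rg
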