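import Cfsg.Agent.H563.KG.Tab
import Cfsg.Agent.H73.Rg.HDefs

/-!
# Tables for half classes (helper73)

`chk1` : the test for a number `M` (the order of a simple group in cross characteristic), the classes `e`, `e'` and the
field exponent `f`; `no_crossH`, `no_sporH`.
-/

set_option autoImplicit false
set_option exponentiation.threshold 7000

namespace Cfsg.Agent.H73.Rg

open Cfsg.Agent.H902 Cfsg.Agent.H290.ElReg Cfsg.Agent.H290.ElTab Cfsg.Agent.H290.ElCross Cfsg.Agent.H563.KG
open Cfsg.Agent.H436 (Prim)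

/-- the data of a test: the shape, the classes, the bound for small primes, lower bounds for the totients, the extra
classes, the smallest field -/
structure TD where
  Y : Art.Sh
  e : ℕ
  e' : ℕ
  P : ℕ
  t : ℕ
  t' : ℕ
  exs : List ℕ
  q₀ : ℕ

/-- `M` contains half of the primitive part -/
def tb1 (p k M : ℕ) : Bool := Nat.ble (pc p k) ((Nat.gcd M (pc p k)) ^ 2)

/-- the small primes up to `P` -/
def smp (P : ℕ) : List ℕ := sps.filter fun p => Nat.ble p P

/-- the test at a small prime: it is impossible that all conditions hold -/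
def tq1 (D : TD) (M d l f p : ℕ) : Bool :=
  p == l || (Nat.blt (p ^ f) D.q₀ || (!(tb1 p (f * D.e) M) || (!(tb1 p (f * D.e') M) ||
    (D.exs.any (fun c => okk (f * c) && Nat.gcd M (pc p (f * c)) == 1) || !((d * OL D.Y (p ^ f)) % M == 0)))))

/-- the test at `f` -/
def chk1 (D : TD) (ps : List ℕ) (M d l f : ℕ) : Bool :=
  De ps M (f * D.e) == 1 || (De ps M (f * D.e') == 1 ||
    (okk (f * D.e) && (okk (f * D.e') &&
      ((Nat.blt ((De ps M (f * D.e)) ^ 2 * (D.e * f)) (D.P ^ D.t) ||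
        Nat.blt ((De ps M (f * D.e')) ^ 2 * (D.e' * f)) (D.P ^ D.t')) &&
      ((smp D.P).all fun p => tq1 D M d l f p)))))

/-- the test -/
def chkM (D : TD) (ps : List ℕ) (M d l : ℕ) : Bool :=
  Nat.blt M (2 ^ 600) && ((List.range (619 / D.e)).all fun f => chk1 D ps M d l (f + 1))

/-- the table of the region -/
def chkR (n : ℕ) (D : TD) (exc : List (Art.Sh × ℕ × ℕ)) : Bool := (reg n).all fun x =>
  decide (x ∈ exc) || chkM D (pd (NS x.1 x.2.1 x.2.2)) (OL x.1 (x.2.1 ^ x.2.2)) (Art.dd x.1 (x.2.1 ^ x.2.2)) x.2.1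

/-- the table of the sporadic groups -/
def chkS (D : TD) : Bool := Cfsg.Agent.OrdDiv.spor.all fun x => chkM D (pd x.2) x.2 1 0

/-- the conditions on the data -/
structure TD.Ok (D : TD) : Prop where
  e7 : 5 ≤ D.e
  e7' : 5 ≤ D.e'
  ne6 : D.e ≠ 6
  ne6' : D.e' ≠ 6
  ht : D.t ≤ D.e.totient
  ht' : D.t' ≤ D.e'.totient
  hP : 1 ≤ D.P
  hP' : D.P ≤ 311

theorem mem_sps {p : ℕ} (hp : p.Prime) (h : p ≤ 311) : p ∈ sps := by
  have h1 : ((List.range 312).all fun p => !(decide p.Prime) || decide (p ∈ sps)) = true := by decide +kernel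
  have h2 := List.all_eq_true.1 h1 p (List.mem_range.2 (by omega))
  simpa [hp] using h2

/-- the facts about the field -/
structure Fac1 (D : TD) (M : ℕ) (p f : ℕ) : Prop where
  hp : p.Prime
  hf : 1 ≤ f
  hq : D.q₀ ≤ p ^ f
  h1 : PP p (f * D.e) ≤ (Nat.gcd M (PP p (f * D.e))) ^ 2
  h2 : PP p (f * D.e') ≤ (Nat.gcd M (PP p (f * D.e'))) ^ 2
  hex : ∀ c ∈ D.exs, ∃ s, Prim p (f * c) s ∧ s ∣ M

theorem gcd_ne_one {p k M : ℕ} (hp : 2 ≤ p) (hk : 3 ≤ k) (h6 : ¬ (p = 2 ∧ k = 6)) (h : PP p k ≤ (Nat.gcd M (PP p k)) ^ 2) :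
    Nat.gcd M (PP p k) ≠ 1 := by
  intro h1
  rw [h1] at h
  have := one_lt_PP hp hk h6
  omega

theorem mul6 {f e : ℕ} (hf : 1 ≤ f) (h5 : 5 ≤ e) (h6 : e ≠ 6) : f * e ≠ 6 := by
  intro h
  rcases Nat.lt_or_ge f 2 with h1 | h1
  · obtain rfl : f = 1 := by omega
    omega
  · have : 2 * e ≤ f * e := Nat.mul_le_mul_right _ h1
    omega

theorem chkM_false {D : TD} (hD : D.Ok) {ps : List ℕ} {M d l N p f : ℕ} (hM0 : M ≠ 0)
    (hps : ∀ r, r.Prime → r ∣ M → r ∈ ps) (hps' : ∀ r ∈ ps, r ≤ 619) (hF : Fac1 D M p f) (hpl : p ≠ l)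
    (hM : M = d * N) (hd : N ∣ OL D.Y (p ^ f)) (hc : chkM D ps M d l = true) : False := by
  obtain ⟨hp, hf, hq, h1, h2, hex⟩ := hF
  have hp2 := hp.two_le
  have h5 := hD.e7
  have h5' := hD.e7'
  have hfe : 1 * D.e ≤ f * D.e := Nat.mul_le_mul_right _ hf
  have hfe' : 1 * D.e' ≤ f * D.e' := Nat.mul_le_mul_right _ hf
  have g1 := gcd_ne_one hp2 (by omega) (fun h => mul6 hf h5 hD.ne6 h.2) h1
  have g2 := gcd_ne_one hp2 (by omega) (fun h => mul6 hf h5' hD.ne6' h.2) h2
  unfold chkM at hc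
  simp only [Bool.and_eq_true, Nat.blt_eq] at hc
  obtain ⟨hM6, hc⟩ := hc
  have key : ∀ e, 3 ≤ f * e → Nat.gcd M (PP p (f * e)) ∣ De ps M (f * e) := by
    intro e he
    refine dvd_De hM0 hM6 (Nat.gcd_dvd_left _ _) fun r hr hrd => ?_
    have h3 := prim_of_dvd_PP hp2 he hr (hrd.trans (Nat.gcd_dvd_right _ _))
    exact ⟨hps r hr (hrd.trans (Nat.gcd_dvd_left _ _)), Nat.mod_eq_zero_of_dvd (mod_of_prim' hp2 h3)⟩
  have hDe0 : ∀ k, De ps M k ≠ 0 := by
    intro k h4
    unfold De at h4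
    rw [List.prod_eq_zero_iff, List.mem_map] at h4
    obtain ⟨r, -, h5⟩ := h4
    exact hM0 (Nat.eq_zero_of_gcd_eq_zero_left h5)
  have key2 : ∀ e, 3 ≤ f * e → Nat.gcd M (PP p (f * e)) ≤ De ps M (f * e) := fun e he =>
    Nat.le_of_dvd (Nat.pos_of_ne_zero (hDe0 _)) (key e he)
  -- the range of `f`
  have hfr : f - 1 ∈ List.range (619 / D.e) := by
    obtain ⟨r, hr, hrd⟩ := Nat.exists_prime_and_dvd g1
    have h3 := prim_of_dvd_PP hp2 (by omega) hr (hrd.trans (Nat.gcd_dvd_right _ _))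
    have h4 := hps' r (hps r hr (hrd.trans (Nat.gcd_dvd_left _ _)))
    have h6 := Nat.le_of_dvd (by have := hr.two_le; omega) (mod_of_prim' hp2 h3)
    have h7 : f ≤ 619 / D.e := by
      rw [Nat.le_div_iff_mul_le (by omega)]
      omega
    exact List.mem_range.2 (by omega)
  have hc1 := List.all_eq_true.1 hc _ hfr
  rw [show f - 1 + 1 = f by omega] at hc1
  unfold chk1 at hc1
  simp only [Bool.or_eq_true, Bool.and_eq_true, Nat.blt_eq, beq_iff_eq] at hc1
  rcases hc1 with hc1 | hc1 | ⟨ho, ho', hb, hs⟩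
  · have h3 := key D.e (by omega)
    rw [hc1] at h3
    exact g1 (Nat.dvd_one.1 h3)
  · have h3 := key D.e' (by omega)
    rw [hc1] at h3
    exact g2 (Nat.dvd_one.1 h3)
  have ho1 : nl (fl (f * D.e)) = f * D.e := by simpa [okk] using ho
  have ho2 : nl (fl (f * D.e')) = f * D.e' := by simpa [okk] using ho'
  have hpP : p ≤ D.P := by
    by_contra hcon
    push Not at hcon
    have hl : ∀ e t, 1 ≤ e → t ≤ e.totient → 3 ≤ f * e → PP p (f * e) ≤ (Nat.gcd M (PP p (f * e))) ^ 2 →
        ¬ (De ps M (f * e)) ^ 2 * (e * f) < D.P ^ t := by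
      intro e t he ht h3 h4
      have h6 := PP_lower (p := p) (f := f) hp2 he hf hcon
      rw [mul_comm e f] at h6
      have h7 : D.P ^ t ≤ D.P ^ e.totient := Nat.pow_le_pow_right hD.hP ht
      have h8 : (Nat.gcd M (PP p (f * e))) ^ 2 ≤ (De ps M (f * e)) ^ 2 := Nat.pow_le_pow_left (key2 e h3) 2
      have h9 : PP p (f * e) * (f * e) ≤ (De ps M (f * e)) ^ 2 * (f * e) := Nat.mul_le_mul_right _ (h4.trans h8)
      rw [mul_comm e f]
      omega
    rcases hb with hb | hb
    · exact hl D.e D.t (by omega) hD.ht (by omega) h1 hb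
    · exact hl D.e' D.t' (by omega) hD.ht' (by omega) h2 hb
  have hpm : p ∈ smp D.P := List.mem_filter.2 ⟨mem_sps hp (hpP.trans hD.hP'), by simpa using hpP⟩
  have h3 := List.all_eq_true.1 hs p hpm
  unfold tq1 at h3
  simp only [Bool.or_eq_true, Nat.blt_eq, beq_iff_eq, Bool.not_eq_true', List.any_eq_true, Bool.and_eq_true] at h3
  rcases h3 with h3 | h3 | h3 | h3 | ⟨c, hcm, hco, hcg⟩ | h3
  · exact hpl h3
  · omega
  · have h4 : tb1 p (f * D.e) M = true := by
      unfold tb1
      rw [Nat.ble_eq, ← PP_eq ho1 hp2]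
      exact h1
    rw [h4] at h3
    exact absurd h3 (by decide)
  · have h4 : tb1 p (f * D.e') M = true := by
      unfold tb1
      rw [Nat.ble_eq, ← PP_eq ho2 hp2]
      exact h2
    rw [h4] at h3
    exact absurd h3 (by decide)
  · obtain ⟨s, hs1, hs2⟩ := hex c hcm
    have hcc : nl (fl (f * c)) = f * c := by simpa [okk] using hco
    rw [← PP_eq hcc hp2] at hcg
    rcases Nat.lt_or_ge (f * c) 3 with h6 | h6
    · -- then `PP p (f * c)` is divisible by `s` as well
      have h7 : s ∣ PP p (f * c) := by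
        have h8 := mod_of_prim' hp2 hs1
        have h0 : f * c ≠ 0 := by
          intro h0
          have := (hs1.dvd_iff 0).2 (by rw [h0])
          have h9 := (hs1.dvd_iff 1).1 (by
            have h10 : ∀ m, s ∣ p ^ m - 1 → s ∣ p ^ m - 1 := fun _ h => h
            exact absurd (hs1.dvd_iff 1) (by
              rw [h0]
              intro h11
              have h12 : s ∣ p ^ (s - 1) - 1 := by
                have := Fact.mk hs1.prime
                have h13 : (p : ZMod s) ^ (s - 1) = 1 := ZMod.pow_card_sub_one_eq_one (by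
                  rw [Ne, ZMod.natCast_eq_zero_iff]; exact hs1.not_dvd)
                rw [← ZMod.natCast_eq_zero_iff, Nat.cast_sub (Nat.one_le_pow _ _ (by omega))]
                push_cast
                rw [h13, sub_self]
              have h14 := (hs1.dvd_iff (s - 1)).1 h12
              rw [h0, Nat.zero_dvd] at h14
              have := hs1.prime.two_le
              omega))
          rw [h0, Nat.zero_dvd] at h9
          exact absurd h9 (by norm_num)
        have h9 : s ∣ Cfsg.Agent.H365.Zsig.Ph (f * c) p := by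
          have h10 : f * c = 1 ∨ f * c = 2 := by omega
          rcases h10 with h10 | h10
          · rw [h10] at hs1 ⊢
            rw [Ph_one (by omega)]
            simpa using hs1.dvd dvd_rfl
          · rw [h10] at hs1 ⊢
            have h11 := Cfsg.Agent.H365.Zsig.Ph_two (q := p) (k := 0) hp2
            norm_num at h11
            rw [h11]
            have h12 := hs1.dvd dvd_rfl
            have h13 : p ^ 2 - 1 = (p + 1) * (p - 1) := by
              have := Nat.sq_sub_sq p 1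
              rwa [one_pow] at this
            rw [h13] at h12
            refine (hs1.prime.dvd_mul.1 h12).resolve_right fun h14 => ?_
            have := (hs1.dvd_iff 1).1 (by simpa using h14)
            have := Nat.le_of_dvd (by norm_num) this
            omega
        rw [← PP_mul (p := p) (k := f * c)] at h9
        refine (hs1.prime.dvd_mul.1 h9).resolve_right fun h10 => ?_
        have h11 : s ∣ f * c := h10.trans (Nat.gcd_dvd_right _ _)
        have h12 := Nat.le_of_dvd (by omega) h11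
        have h13 := Nat.le_of_dvd (by have := hs1.prime.two_le; omega) h8
        omega
      have h8 : s ∣ 1 := hcg ▸ Nat.dvd_gcd hs2 h7
      exact hs1.prime.one_lt.ne' (Nat.dvd_one.1 h8)
    · have h8 : s ∣ 1 := hcg ▸ Nat.dvd_gcd hs2 (dvd_PP hp2 h6 hs1)
      exact hs1.prime.one_lt.ne' (Nat.dvd_one.1 h8)
  · have h4 : (d * OL D.Y (p ^ f)) % M = 0 := Nat.mod_eq_zero_of_dvd (hM ▸ Nat.mul_dvd_mul_left d hd)
    rw [h4] at h3
    exact absurd h3 (by decide)

theorem prs_le : ∀ r ∈ prs, r ≤ 619 := by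
  have h : (prs.all fun r => Nat.ble r 619) = true := by decide +kernel
  intro r hr
  simpa using List.all_eq_true.1 h r hr

variable {n : ℕ} {D : TD} {exc : List (Art.Sh × ℕ × ℕ)} {p f : ℕ}

/-- **Cross characteristic.** -/
theorem no_crossH (hn : n ≤ 248) (hD : D.Ok) (hc : chkR n D exc = true) {X : Art.Sh} {l a N : ℕ}
    (hR : Art.Real X l a N) (hlb : lb X (l ^ a) ≤ n) (hpl : p ≠ l) (hF : Fac1 D N p f)
    (hd : N ∣ OL D.Y (p ^ f)) : (X, (l, a)) ∈ exc := by
  obtain ⟨hl, ha, hokX, heq⟩ := hR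
  have hreg := mem_reg hn hl ha hokX hlb
  have hs' : smooth (NA X l a) = true :=
    List.all_eq_true.1 smooth_reg (X, (l, a)) (mem_reg le_rfl hl ha hokX (hlb.trans hn))
  have hsS : smooth (NS X l a) = true := by
    have h1 : NS X l a ∣ NA X l a := Dvd.intro_left _ rfl
    have h2 : NA X l a ∣ prs.prod ^ 100 := Nat.dvd_of_mod_eq_zero (by simpa [smooth] using hs')
    simpa [smooth] using Nat.mod_eq_zero_of_dvd (h1.trans h2)
  have hM : OL X (l ^ a) = Art.dd X (l ^ a) * N := by unfold OL; rw [numL_eq]; exact heq.symm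
  have hNM : N ∣ OL X (l ^ a) := Dvd.intro_left _ hM.symm
  have hMS : ∀ r, r.Prime → r ∣ OL X (l ^ a) → r ∈ pd (NS X l a) := by
    intro r hr h
    refine mem_pd hsS hr ?_
    unfold NS
    rcases hr.dvd_mul.1 h with h2 | h2
    · exact (hr.dvd_of_dvd_pow (hr.dvd_of_dvd_pow h2)).mul_right _
    · exact h2.mul_left _
  have hM0 : OL X (l ^ a) ≠ 0 := by
    intro h0
    have h3 : l ^ a ≠ 0 := pow_ne_zero _ hl.ne_zero
    have h4 : NS X l a ≠ 0 := by
      intro h5
      have h6 : NS X l a ∣ prs.prod ^ 100 := Nat.dvd_of_mod_eq_zero (by simpa [smooth] using hsS)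
      rw [h5] at h6
      have h7 := Nat.eq_zero_of_zero_dvd h6
      have h8 : prs.prod ≠ 0 := by decide +kernel
      exact pow_ne_zero 100 h8 h7
    apply h4
    unfold OL at h0
    rcases Nat.mul_eq_zero.1 h0 with h5 | h5
    · exact absurd h5 (pow_ne_zero _ h3)
    · unfold NS
      rw [h5, mul_zero]
  have h1 := List.all_eq_true.1 hc (X, (l, a)) hreg
  simp only [Bool.or_eq_true, decide_eq_true_eq] at h1
  refine h1.resolve_right fun h2 => ?_
  have hmono : ∀ k, Nat.gcd N k ≤ Nat.gcd (OL X (l ^ a)) k := fun k =>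
    Nat.le_of_dvd (Nat.gcd_pos_of_pos_left _ (Nat.pos_of_ne_zero hM0)) (Nat.gcd_dvd_gcd_of_dvd_left _ hNM)
  have hF' : Fac1 D (OL X (l ^ a)) p f :=
    { hF with
      h1 := hF.h1.trans (Nat.pow_le_pow_left (hmono _) 2)
      h2 := hF.h2.trans (Nat.pow_le_pow_left (hmono _) 2)
      hex := fun c hc => (hF.hex c hc).imp fun s hs => ⟨hs.1, hs.2.trans hNM⟩ }
  exact chkM_false hD hM0 hMS (fun r hr => prs_le r (List.mem_of_mem_filter hr)) hF' hpl hM hd h2

/-- **Sporadic groups.** -/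
theorem no_sporH (hD : D.Ok) (hc : chkS D = true) {x : Cfsg.Agent.OrdDiv.Grp × ℕ} (hx : x ∈ Cfsg.Agent.OrdDiv.spor)
    (hF : Fac1 D x.2 p f) (hd : x.2 ∣ OL D.Y (p ^ f)) : False := by
  have hs' : smooth x.2 = true := List.all_eq_true.1 smooth_spor x hx
  have hM0 : x.2 ≠ 0 := by
    have : ∀ x ∈ Cfsg.Agent.OrdDiv.spor, x.2 ≠ 0 := by decide +kernel
    exact this x hx
  exact chkM_false hD hM0 (fun r hr h => mem_pd hs' hr h) (fun r hr => prs_le r (List.mem_of_mem_filter hr)) hF
    hF.hp.ne_zero (one_mul _).symm hd (List.all_eq_true.1 hc x hx)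

end Cfsg.Agent.H73.Rg
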